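import Cfsg.Agent.H581.HC

/-!
# Indices of the Hall subgroups of a Hall covering (helper468, for S4388)

`|S| = (∏ R) m`, `R` a list of primes not dividing `m`, all primes of `|S|` outside `R` are in `σ`; no subgroup of prime
index: the index of a Hall `σ`-subgroup is a composite product of members of `R` (`comp_index`).
-/

set_option autoImplicit false

namespace Cfsg.Agent.H468.HCS

open Subgroup Cfsg.Agent.H581

/-- products of sublists -/
def subs : List ℕ → List ℕ
  | [] => [1]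
  | r :: R => subs R ++ (subs R).map (r * ·)

theorem mem_subs : ∀ (R : List ℕ), (∀ r ∈ R, r.Prime) → ∀ n : ℕ, n ∣ R.prod → n ∈ subs R := by
  intro R
  induction R with
  | nil =>
    intro _ n h
    rw [List.prod_nil, Nat.dvd_one] at h
    simp [subs, h]
  | cons r R ih =>
    intro hR n h
    rw [List.prod_cons] at h
    have hr := hR r List.mem_cons_self
    have hR' : ∀ q ∈ R, q.Prime := fun q hq => hR q (List.mem_cons_of_mem _ hq)
    rw [subs, List.mem_append, List.mem_map]
    by_cases hd : r ∣ n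
    · right
      obtain ⟨m, rfl⟩ := hd
      exact ⟨m, ih hR' m (Nat.dvd_of_mul_dvd_mul_left hr.pos h), rfl⟩
    · left
      exact ih hR' n (Nat.Coprime.dvd_of_dvd_mul_left ((Nat.Prime.coprime_iff_not_dvd hr).2 hd).symm h)

/-- the composite ones -/
def comps (R : List ℕ) : List ℕ := (subs R).filter fun n => !(Nat.beq n 1) && R.all fun r => !(Nat.beq n r)

theorem mem_comps {R : List ℕ} {n : ℕ} (h : n ∈ subs R) (h1 : n ≠ 1) (h2 : n ∉ R) : n ∈ comps R := by
  unfold comps
  rw [List.mem_filter]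
  refine ⟨h, ?_⟩
  rw [Bool.and_eq_true, List.all_eq_true]
  constructor
  · rw [Bool.not_eq_true', ← Bool.not_eq_true, Nat.beq_eq]
    exact h1
  · intro r hr
    rw [Bool.not_eq_true', ← Bool.not_eq_true, Nat.beq_eq]
    rintro rfl
    exact h2 hr

variable {S : Type*} [Group S] [Finite S] {σ : Set ℕ}

/-- the index divides `∏ R` -/
theorem index_dvd {H : Subgroup S} (hH : IsHallFor σ H) {N m : ℕ} {R : List ℕ}
    (hN : Nat.card S = N) (hNm : N = R.prod * m) (hRm : ∀ r ∈ R, ¬ r ∣ m)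
    (hσ : ∀ q : ℕ, q.Prime → q ∣ N → q ∉ R → q ∈ σ) : H.index ∣ R.prod := by
  have h1 : H.index ∣ R.prod * m := by
    rw [← hNm, ← hN]
    exact Subgroup.index_dvd_card H
  refine Nat.Coprime.dvd_of_dvd_mul_right ?_ h1
  rw [Nat.coprime_iff_gcd_eq_one]
  by_contra hne
  obtain ⟨q, hq, hd⟩ := Nat.exists_prime_and_dvd hne
  have hqm : q ∣ m := hd.trans (Nat.gcd_dvd_right _ _)
  refine hH.index q hq (hσ q hq (hNm ▸ hqm.mul_left _) fun hR => hRm q hR hqm) (hd.trans (Nat.gcd_dvd_left _ _))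

/-- a prime of `|S|` not dividing the index is in `σ` -/
theorem mem_sigma {H : Subgroup S} (hH : IsHallFor σ H) {r : ℕ} (hr : r.Prime) (hd : r ∣ Nat.card S)
    (hn : ¬ r ∣ H.index) : r ∈ σ := by
  rw [← H.card_mul_index] at hd
  exact hH.card r hr ((hr.dvd_mul.1 hd).resolve_right hn)

/-- **the possible indices** -/
theorem comp_index (hc : HC S σ) {H : Subgroup S} (hH : IsHallFor σ H) {N m : ℕ} {R : List ℕ}
    (hN : Nat.card S = N) (hNm : N = R.prod * m) (hRp : ∀ r ∈ R, r.Prime) (hRm : ∀ r ∈ R, ¬ r ∣ m)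
    (hσ : ∀ q : ℕ, q.Prime → q ∣ N → q ∉ R → q ∈ σ)
    (hpr : ∀ (K : Subgroup S) (p : ℕ), p.Prime → K.index ≠ p) : H.index ∈ comps R := by
  refine mem_comps (mem_subs R hRp _ (index_dvd hH hN hNm hRm hσ)) ?_ fun h => hpr H _ (hRp _ h) rfl
  intro h
  exact hc.ne_top hH (Subgroup.index_eq_one.1 h)

/-- another Hall subgroup, containing a given element; the same index -/
theorem exists_hall_mem (hc : HC S σ) {H : Subgroup S} (hH : IsHallFor σ H) {g : S} {a : ℕ} (ha : a.Prime)
    (hg : a ∣ orderOf g) (haσ : a ∈ σ) : ∃ K : Subgroup S, g ∈ K ∧ IsHallFor σ K ∧ K.index = H.index := by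
  obtain ⟨K, hgK, hK⟩ := hc.cov g a ha hg haσ
  refine ⟨K, hgK, hK, ?_⟩
  have h1 := K.card_mul_index
  have h2 := H.card_mul_index
  rw [← h2, hK.card_eq hH] at h1
  exact Nat.eq_of_mul_eq_mul_left Nat.card_pos h1

end Cfsg.Agent.H468.HCS
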