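import Cfsg.Agent.H468.HCS.Struct
import Cfsg.Agent.OrdDiv.Main

/-!
# Numerical test for subgroups containing a Sylow subgroup of prime order (helper468, for S4388)

`num`: `|S| = n |H|`, `p ∥ |S|`, `g ∈ H` of order `p m`, `|N_S(⟨g ^ m⟩)| = p N0`; then `N0 = f L`, `f ≡ n (mod p)`,
`m ∣ L`, `|N_H(⟨x⟩)| = p L`, and a simple group `N` as in `struct`.  `false_of_chkA`: the Boolean test.
-/

set_option autoImplicit false

namespace Cfsg.Agent.H468.HCS

open Subgroup
open scoped Pointwise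
open Cfsg.Agent.OrdDiv Cfsg

universe u

/-- the simple group of `struct` with the numerical conditions -/
structure Fac (H : Type u) [Group H] (p L : ℕ) (N : Type u) : Prop where
  dvd : p ∣ Nat.card N
  dvd' : Nat.card N ∣ Nat.card H
  loc : ∀ r : ℕ, r.Prime → r ≠ p → ∀ v : ℕ, r ^ v ∣ Nat.card H → ¬ r ^ (v + 1) ∣ Nat.card H →
    ∃ i ≤ v, r ^ i % p = 1 ∧ Nat.card N * r ^ i ∣ Nat.card H ∧ r ^ (v - i) ∣ Nat.card N * L

/-- the normaliser in a subgroup -/
theorem card_norm {S : Type u} [Group S] [Finite S] {H : Subgroup S} {x : S} (hx : x ∈ H) :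
    Nat.card (normalizer ((zpowers (⟨x, hx⟩ : H) : Subgroup H) : Set H)) =
      Nat.card (H.subgroupOf (normalizer ((zpowers x : Subgroup S) : Set S))) := by
  set R : Subgroup S := zpowers x with hR
  have h0 : (zpowers (⟨x, hx⟩ : H)).map H.subtype = R := by
    rw [MonoidHom.map_zpowers]
    rfl
  have h1 : ∀ h : H, h ∈ normalizer ((zpowers (⟨x, hx⟩ : H) : Subgroup H) : Set H) ↔
      (h : S) ∈ normalizer (R : Set S) := by
    intro h
    rw [mem_normalizer_iff, mem_normalizer_iff]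
    have key : ∀ y : H, y ∈ (zpowers (⟨x, hx⟩ : H) : Subgroup H) ↔ (y : S) ∈ R := by
      intro y
      rw [← h0]
      constructor
      · intro hy
        exact ⟨y, hy, rfl⟩
      · rintro ⟨z, hz, hzy⟩
        have : z = y := Subtype.ext hzy
        rwa [← this]
    constructor
    · intro hh y
      constructor
      · intro hy
        have hyH : y ∈ H := (zpowers_le.2 hx) hy
        have := (hh ⟨y, hyH⟩).1 ((key _).2 hy)
        exact (key _).1 this
      · intro hy
        have hyH : (h : S) * y * (h : S)⁻¹ ∈ H := (zpowers_le.2 hx) hy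
        have hyH' : y ∈ H := by
          have := mul_mem (mul_mem (inv_mem h.2) hyH) h.2
          rwa [show (h : S)⁻¹ * ((h : S) * y * (h : S)⁻¹) * (h : S) = y by group] at this
        have := (hh ⟨y, hyH'⟩).2 ((key _).2 hy)
        exact (key _).1 this
    · intro hh y
      exact (key y).trans ((hh y).trans (key (h * y * h⁻¹)).symm)
  let e : normalizer ((zpowers (⟨x, hx⟩ : H) : Subgroup H) : Set H) ≃
      (H.subgroupOf (normalizer (R : Set S))) :=
    { toFun := fun h => ⟨⟨h.1.1, (h1 h.1).1 h.2⟩, h.1.2⟩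
      invFun := fun h => ⟨⟨h.1.1, h.2⟩, (h1 ⟨h.1.1, h.2⟩).2 h.1.2⟩
      left_inv := fun h => rfl
      right_inv := fun h => rfl }
  exact Nat.card_congr e

/-- **the numerical information** -/
theorem num {S : Type u} [Group S] [Finite S] {p : ℕ} (hp : p.Prime) (hp2 : ¬ p ^ 2 ∣ Nat.card S) {N0 m n : ℕ}
    {H : Subgroup S} (hn : H.index = n) {g : S} (hg : g ∈ H) (hgo : orderOf g = p * m)
    (hN : ∀ x : S, orderOf x = p → Nat.card (normalizer ((zpowers x : Subgroup S) : Set S)) = p * N0) :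
    ∃ f L : ℕ, f * L = N0 ∧ f % p = n % p ∧ m ∣ L ∧
      ∃ (N : Type u) (_ : Group N) (_ : Finite N), IsSimpleGroup N ∧ Fac H p L N := by
  have hm : m ≠ 0 := by
    rintro rfl
    rw [mul_zero] at hgo
    exact (orderOf_pos g).ne' hgo
  set x : S := g ^ m with hxdef
  have hx : orderOf x = p := by
    rw [hxdef, orderOf_pow_of_dvd hm (by rw [hgo]; exact dvd_mul_left _ _), hgo,
      Nat.mul_div_cancel _ (Nat.pos_of_ne_zero hm)]
  have hxH : x ∈ H := pow_mem hg m
  set R : Subgroup S := zpowers x with hRdef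
  have hRc : Nat.card R = p := by rw [hRdef, Nat.card_zpowers, hx]
  have hRH : R ≤ H := zpowers_le.2 hxH
  set NR : Subgroup S := normalizer (R : Set S) with hNR
  have h1 := H408.SylCong.relIndex_modEq hp hp2 hRc hRH
  have h2 : Nat.card (H.subgroupOf NR) * H.relIndex NR = p * N0 := by
    rw [← hN x hx]
    exact Subgroup.card_mul_index (H.subgroupOf NR)
  -- `g ∈ NR ⊓ H`
  have hgN : g ∈ NR := by
    have hc : g * x = x * g := by rw [hxdef, ← pow_succ', ← pow_succ]
    rw [hNR, mem_normalizer_iff]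
    intro y
    constructor
    · rintro ⟨k, hk⟩
      refine ⟨k, ?_⟩
      have hk' : x ^ k = y := hk
      have h3 : Commute g (x ^ k) := Commute.zpow_right hc k
      change x ^ k = g * y * g⁻¹
      rw [← hk', h3.eq, mul_inv_cancel_right]
    · rintro ⟨k, hk⟩
      refine ⟨k, ?_⟩
      have hk' : x ^ k = g * y * g⁻¹ := hk
      have h3 : Commute g (x ^ k) := Commute.zpow_right hc k
      change x ^ k = y
      have h4 : y = g⁻¹ * x ^ k * g := by rw [hk']; group
      rw [h4, mul_assoc, ← h3.eq, inv_mul_cancel_left]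
  have h3 : p * m ∣ Nat.card (H.subgroupOf NR) := by
    rw [← hgo]
    have h4 : orderOf (⟨⟨g, hgN⟩, hg⟩ : H.subgroupOf NR) = orderOf g := by
      rw [← Subgroup.orderOf_coe, ← Subgroup.orderOf_coe]
    rw [← h4]
    exact orderOf_dvd_natCard _
  obtain ⟨L', hL'⟩ := h3
  have hL : Nat.card (H.subgroupOf NR) = p * (m * L') := by rw [hL', mul_assoc]
  refine ⟨H.relIndex NR, m * L', ?_, ?_, dvd_mul_right _ _, ?_⟩
  · rw [hL] at h2
    have h4 : p * (H.relIndex NR * (m * L')) = p * N0 := by rw [← h2]; ring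
    exact Nat.eq_of_mul_eq_mul_left hp.pos h4
  · rw [← hn]
    exact h1
  · have hpH : ¬ p ^ 2 ∣ Nat.card H := fun h => hp2 (h.trans (Subgroup.card_subgroup_dvd_card H))
    have hxo : orderOf (⟨x, hxH⟩ : H) = p := by rw [← hx, ← Subgroup.orderOf_coe]
    obtain ⟨N, iN, fN, hs, h4, h5, h6⟩ := struct hp hxo hpH
    refine ⟨N, iN, fN, hs, h4, h5, fun r hr hrp v hv hv1 => ?_⟩
    obtain ⟨i, hi, h7, h8, h9⟩ := h6 r hr hrp v hv hv1
    refine ⟨i, hi, h7, h8, ?_⟩
    rw [card_norm hxH, hL, mul_left_comm] at h9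
    exact Nat.Coprime.dvd_of_dvd_mul_left (Nat.Coprime.pow_left _ ((Nat.coprime_primes hr hp).2 hrp)) h9

/-! ### the test -/

theorem beq_iff (a b : ℕ) : Nat.beq a b = true ↔ a = b := by rw [Nat.beq_eq]

theorem nbeq_iff (a b : ℕ) : (!(Nat.beq a b)) = true ↔ a ≠ b := by
  rw [Bool.not_eq_true', ← Bool.not_eq_true, beq_iff]

def okI (h p L : ℕ) (x : ℕ × ℕ) (a : ℕ) : Bool :=
  (List.range (x.2 + 1)).any fun i =>
    Nat.beq (x.1 ^ i % p) 1 && Nat.beq (h % (a * x.1 ^ i)) 0 && Nat.beq ((a * L) % x.1 ^ (x.2 - i)) 0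

def okA (h p L : ℕ) (l : List (ℕ × ℕ)) (a : ℕ) : Bool :=
  Nat.beq (a % p) 0 && l.all fun x => Nat.beq x.1 p || okI h p L x a

/-- no possible order -/
def badL (h p L : ℕ) (l : List (ℕ × ℕ)) : Bool :=
  !(okA h p L l p) && (cands l h).all fun g => !(okA h p L l (ordN g))

def chkA (h p N0 m n : ℕ) (l : List (ℕ × ℕ)) : Bool :=
  (List.range (N0 + 1)).all fun f => Nat.beq f 0 || !(Nat.beq (N0 % f) 0) || !(Nat.beq (f % p) (n % p)) ||
    !(Nat.beq ((N0 / f) % m) 0) || badL h p (N0 / f) l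

theorem okA_of_fac {H : Type u} [Group H] [Finite H] {p L h : ℕ} (hh : Nat.card H = h) {l : List (ℕ × ℕ)}
    (hv : valid l h = true) {N : Type u} (hF : Fac H p L N) : okA h p L l (Nat.card N) = true := by
  unfold okA
  rw [Bool.and_eq_true, List.all_eq_true]
  refine ⟨by rw [beq_iff]; exact Nat.mod_eq_zero_of_dvd hF.dvd, fun x hx => ?_⟩
  rw [Bool.or_eq_true, beq_iff]
  by_cases hxp : x.1 = p
  · exact Or.inl hxp
  · right
    have hxd : x.1 ^ x.2 ∣ Nat.card H := by
      rw [hh, ← valid_prod hv]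
      exact List.dvd_prod (List.mem_map.2 ⟨x, hx, rfl⟩)
    obtain ⟨i, hi, h1, h2, h3⟩ := hF.loc x.1 (valid_prime hv x hx) hxp x.2 hxd (by rw [hh]; exact valid_exact hv x hx)
    unfold okI
    rw [List.any_eq_true]
    refine ⟨i, List.mem_range.2 (by omega), ?_⟩
    rw [Bool.and_eq_true, Bool.and_eq_true, beq_iff, beq_iff, beq_iff]
    rw [hh] at h2
    exact ⟨⟨h1, Nat.mod_eq_zero_of_dvd h2⟩, Nat.mod_eq_zero_of_dvd h3⟩

theorem not_fac (T : OrderTable.{u}) (hS : ∀ (X : Type u) [Group X] [Finite X] [IsSimpleGroup X], IsKnownSimple' X)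
    {H : Type u} [Group H] [Finite H] {p L h : ℕ} (hp : p.Prime) (hh : Nat.card H = h) {l : List (ℕ × ℕ)}
    (hv : valid l h = true) (hb : badL h p L l = true) {N : Type u} [Group N] [Finite N] (hs : IsSimpleGroup N)
    (hF : Fac H p L N) : False := by
  have hok := okA_of_fac hh hv hF
  unfold badL at hb
  rw [Bool.and_eq_true, List.all_eq_true] at hb
  by_cases hna : ∀ a b : N, a * b = b * a
  · let _ : CommGroup N := { (inferInstance : Group N) with mul_comm := hna }
    have h1 : (Nat.card N).Prime := IsSimpleGroup.prime_card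
    have h2 : Nat.card N = p := ((Nat.prime_dvd_prime_iff_eq hp h1).1 hF.dvd).symm
    rw [h2] at hok
    rw [hok] at hb
    exact absurd hb.1 (by decide)
  · obtain ⟨g, hg, -, hgo⟩ := exists_good T (hS N) hna hv (by rw [← hh]; exact hF.dvd')
    have h1 := hb.2 g hg
    rw [← hgo, hok] at h1
    exact absurd h1 (by decide)

/-- **the test** -/
theorem false_of_chkA (T : OrderTable.{u})
    (hS : ∀ (X : Type u) [Group X] [Finite X] [IsSimpleGroup X], IsKnownSimple' X)
    {S : Type u} [Group S] [Finite S] {p : ℕ} (hp : p.Prime) {N0 m n h : ℕ} (hc : Nat.card S = n * h)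
    (hp2 : ¬ p ^ 2 ∣ n * h) (hN0 : N0 ≠ 0)
    {H : Subgroup S} (hn : H.index = n) {g : S} (hg : g ∈ H) (hgo : orderOf g = p * m)
    (hN : ∀ x : S, orderOf x = p → Nat.card (normalizer ((zpowers x : Subgroup S) : Set S)) = p * N0)
    {l : List (ℕ × ℕ)} (hv : valid l h = true) (hchk : chkA h p N0 m n l = true) : False := by
  rw [← hc] at hp2
  obtain ⟨f, L, hfL, hf, hm, N, iN, fN, hs, hF⟩ := num hp hp2 hn hg hgo hN
  have hn0 : n ≠ 0 := by rw [← hn]; exact Subgroup.index_ne_zero_of_finite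
  have hh : Nat.card H = h := by
    have h1 := H.card_mul_index
    rw [hn, hc, mul_comm] at h1
    exact Nat.eq_of_mul_eq_mul_left (Nat.pos_of_ne_zero hn0) h1
  have hf0 : f ≠ 0 := by rintro rfl; rw [zero_mul] at hfL; exact hN0 hfL.symm
  have hL : N0 / f = L := by rw [← hfL, Nat.mul_div_cancel_left _ (Nat.pos_of_ne_zero hf0)]
  unfold chkA at hchk
  rw [List.all_eq_true] at hchk
  have h1 := hchk f (List.mem_range.2 (by
    have : f ≤ N0 := Nat.le_of_dvd (Nat.pos_of_ne_zero hN0) ⟨L, hfL.symm⟩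
    omega))
  rw [hL] at h1
  simp only [Bool.or_eq_true, nbeq_iff, beq_iff] at h1
  rcases h1 with (((h1 | h1) | h1) | h1) | h1
  · exact hf0 h1
  · exact h1 (Nat.mod_eq_zero_of_dvd ⟨L, hfL.symm⟩)
  · exact h1 hf
  · exact h1 (Nat.mod_eq_zero_of_dvd hm)
  · exact not_fac T hS hp hh hv h1 hs hF

/-! ### the test with partial information on the normaliser -/

theorem pow_dvd_of_not {r k c a b : ℕ} (hr : r.Prime) (h : r ^ k ∣ a * b) (hb : ¬ r ^ (c + 1) ∣ b) : r ^ (k - c) ∣ a := by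
  have hb0 : b ≠ 0 := by rintro rfl; exact hb (dvd_zero _)
  obtain ⟨j, b', hb', rfl⟩ := Nat.exists_eq_pow_mul_and_not_dvd hb0 r hr.ne_one
  have hj : j ≤ c := by
    by_contra hlt
    exact hb ((pow_dvd_pow r (by omega)).trans (dvd_mul_right _ _))
  have h1 : r ^ k ∣ a * r ^ j := by
    rw [← mul_assoc] at h
    exact Nat.Coprime.dvd_of_dvd_mul_right (Nat.Coprime.pow_left _ ((Nat.Prime.coprime_iff_not_dvd hr).2 hb')) h
  rcases le_or_gt k j with h2 | h2
  · rw [Nat.sub_eq_zero_of_le (by omega), pow_zero]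
    exact one_dvd _
  · have h3 : r ^ (k - j) ∣ a := by
      have h4 : r ^ k = r ^ (k - j) * r ^ j := by rw [← pow_add]; congr 1; omega
      rw [h4] at h1
      exact Nat.dvd_of_mul_dvd_mul_right (pow_pos hr.pos j) h1
    exact (pow_dvd_pow r (by omega)).trans h3

def okJ (h p : ℕ) (E : List (ℕ × ℕ)) (x : ℕ × ℕ) (a : ℕ) : Bool :=
  (List.range (x.2 + 1)).any fun i =>
    Nat.beq (x.1 ^ i % p) 1 && Nat.beq (h % (a * x.1 ^ i)) 0 &&
      E.all fun y => !(Nat.beq y.1 x.1) || Nat.beq (a % x.1 ^ (x.2 - i - y.2)) 0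

def okB (h p : ℕ) (E l : List (ℕ × ℕ)) (a : ℕ) : Bool :=
  Nat.beq (a % p) 0 && l.all fun x => Nat.beq x.1 p || okJ h p E x a

/-- no possible order, `E` : pairs `(r, c)` with `r ^ (c + 1) ∤ |N_H(⟨x⟩)|` -/
def chkB (h p : ℕ) (E l : List (ℕ × ℕ)) : Bool :=
  !(okB h p E l p) && (cands l h).all fun g => !(okB h p E l (ordN g))

/-- **the test with partial information** -/
theorem false_of_chkB (T : OrderTable.{u})
    (hS : ∀ (X : Type u) [Group X] [Finite X] [IsSimpleGroup X], IsKnownSimple' X)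
    {H : Type u} [Group H] [Finite H] {p h : ℕ} (hp : p.Prime) (hh : Nat.card H = h) (hp2 : ¬ p ^ 2 ∣ h)
    {x : H} (hx : orderOf x = p) {E l : List (ℕ × ℕ)} (hv : valid l h = true)
    (hE : ∀ y ∈ E, ¬ y.1 ^ (y.2 + 1) ∣ Nat.card (normalizer ((zpowers x : Subgroup H) : Set H)))
    (hchk : chkB h p E l = true) : False := by
  obtain ⟨N, iN, fN, hs, h4, h5, h6⟩ := struct hp hx (by rwa [hh])
  have hok : okB h p E l (Nat.card N) = true := by
    unfold okB
    rw [Bool.and_eq_true, List.all_eq_true]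
    refine ⟨by rw [beq_iff]; exact Nat.mod_eq_zero_of_dvd h4, fun y hy => ?_⟩
    rw [Bool.or_eq_true, beq_iff]
    by_cases hyp : y.1 = p
    · exact Or.inl hyp
    · right
      have hyr := valid_prime hv y hy
      have hyd : y.1 ^ y.2 ∣ Nat.card H := by
        rw [hh, ← valid_prod hv]
        exact List.dvd_prod (List.mem_map.2 ⟨y, hy, rfl⟩)
      obtain ⟨i, hi, h1, h2, h3⟩ := h6 y.1 hyr hyp y.2 hyd (by rw [hh]; exact valid_exact hv y hy)
      unfold okJ
      rw [List.any_eq_true]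
      refine ⟨i, List.mem_range.2 (by omega), ?_⟩
      rw [Bool.and_eq_true, Bool.and_eq_true, beq_iff, beq_iff, List.all_eq_true]
      rw [hh] at h2
      refine ⟨⟨h1, Nat.mod_eq_zero_of_dvd h2⟩, fun z hz => ?_⟩
      rw [Bool.or_eq_true, nbeq_iff, beq_iff]
      by_cases hzy : z.1 = y.1
      · right
        have h7 := hE z hz
        rw [hzy] at h7
        exact Nat.mod_eq_zero_of_dvd (pow_dvd_of_not hyr h3 h7)
      · exact Or.inl hzy
  unfold chkB at hchk
  rw [Bool.and_eq_true, List.all_eq_true] at hchk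
  by_cases hna : ∀ a b : N, a * b = b * a
  · let _ : CommGroup N := { (inferInstance : Group N) with mul_comm := hna }
    have h1 : (Nat.card N).Prime := IsSimpleGroup.prime_card
    have h2 : Nat.card N = p := ((Nat.prime_dvd_prime_iff_eq hp h1).1 h4).symm
    rw [h2] at hok
    rw [hok] at hchk
    exact absurd hchk.1 (by decide)
  · obtain ⟨g, hg, -, hgo⟩ := exists_good T (hS N) hna hv (by rw [← hh]; exact h5)
    have h1 := hchk.2 g hg
    rw [← hgo, hok] at h1
    exact absurd h1 (by decide)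

/-- the same for a subgroup; `E` constrains the normaliser in the whole group -/
theorem false_of_chkB' (T : OrderTable.{u})
    (hS : ∀ (X : Type u) [Group X] [Finite X] [IsSimpleGroup X], IsKnownSimple' X)
    {S : Type u} [Group S] [Finite S] {H : Subgroup S} {p n h : ℕ} (hp : p.Prime) (hc : Nat.card S = n * h)
    (hn : H.index = n) (hpn : ¬ p ∣ n) (hph : p ∣ h) (hp2 : ¬ p ^ 2 ∣ h) {E l : List (ℕ × ℕ)} (hv : valid l h = true)
    (hE : ∀ x : S, orderOf x = p → ∀ y ∈ E, ¬ y.1 ^ (y.2 + 1) ∣ Nat.card (normalizer ((zpowers x : Subgroup S) : Set S)))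
    (hchk : chkB h p E l = true) : False := by
  have hn0 : n ≠ 0 := by rw [← hn]; exact Subgroup.index_ne_zero_of_finite
  have hh : Nat.card H = h := by
    have h1 := H.card_mul_index
    rw [hn, hc, mul_comm] at h1
    exact Nat.eq_of_mul_eq_mul_left (Nat.pos_of_ne_zero hn0) h1
  have : Fact p.Prime := ⟨hp⟩
  obtain ⟨x, hx⟩ := exists_prime_orderOf_dvd_card' (G := H) p (by rw [hh]; exact hph)
  refine false_of_chkB T hS hp hh hp2 hx hv (fun y hy hd => ?_) hchk
  have hx' : orderOf (x : S) = p := by rw [Subgroup.orderOf_coe, hx]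
  refine hE x hx' y hy (hd.trans ?_)
  have h1 := card_norm (H := H) (x := (x : S)) x.2
  have h2 : (⟨(x : S), x.2⟩ : H) = x := rfl
  rw [h2] at h1
  rw [h1]
  exact Subgroup.card_subgroup_dvd_card _

end Cfsg.Agent.H468.HCS
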