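import Cfsg.Agent.H468.HCS.Tools

/-!
# Tables for the rows (helper468, for S4388)
-/

set_option autoImplicit false

namespace Cfsg.Agent.H468.HCS

open Cfsg.Agent.OrdDiv

/-! `tX` : the possible indices with the factorization of the order of the subgroup -/

def tM23 : List (ℕ × List (ℕ × ℕ)) := [(23, [(2, 7), (3, 2), (5, 1), (7, 1), (11, 1)]),
  (253, [(2, 7), (3, 2), (5, 1), (7, 1)])]

theorem kM23 : chkR 10200960 5 12 3 [23, 253] tM23 = true := by decide +kernel

def tJ1 : List (ℕ × List (ℕ × ℕ)) := [(77, [(2, 3), (3, 1), (5, 1), (19, 1)]),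
  (133, [(2, 3), (3, 1), (5, 1), (11, 1)]),
  (209, [(2, 3), (3, 1), (5, 1), (7, 1)]),
  (1463, [(2, 3), (3, 1), (5, 1)])]

theorem kJ1 : chkR 175560 5 12 3 (comps [7, 11, 19]) tJ1 = true := by decide +kernel

def tJ3 : List (ℕ × List (ℕ × ℕ)) := [(323, [(2, 7), (3, 5), (5, 1)])]

theorem kJ3 : chkR 50232960 5 12 3 (comps [17, 19]) tJ3 = true := by decide +kernel

def tSuz : List (ℕ × List (ℕ × ℕ)) := [(143, [(2, 13), (3, 7), (5, 2), (7, 1)])]

theorem kSuz : chkR 448345497600 7 72 1 (comps [11, 13]) tSuz = true := by decide +kernel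

def tLy : List (ℕ × List (ℕ × ℕ)) := [(1147, [(2, 8), (3, 7), (5, 6), (7, 1), (11, 1), (67, 1)]),
  (2077, [(2, 8), (3, 7), (5, 6), (7, 1), (11, 1), (37, 1)]),
  (2479, [(2, 8), (3, 7), (5, 6), (7, 1), (11, 1), (31, 1)]),
  (76849, [(2, 8), (3, 7), (5, 6), (7, 1), (11, 1)])]

theorem kLy : chkR 51765179004000000 7 144 1 (comps [31, 37, 67]) tLy = true := by decide +kernel

def tFi23 : List (ℕ × List (ℕ × ℕ)) := [(391, [(2, 18), (3, 13), (5, 2), (7, 1), (11, 1), (13, 1)])]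

theorem kFi23 : chkR 4089470473293004800 11 40 1 (comps [17, 23]) tFi23 = true := by decide +kernel

def tFi24 : List (ℕ × List (ℕ × ℕ)) := [(391, [(2, 21), (3, 16), (5, 2), (7, 3), (11, 1), (13, 1), (29, 1)]),
  (493, [(2, 21), (3, 16), (5, 2), (7, 3), (11, 1), (13, 1), (23, 1)]),
  (667, [(2, 21), (3, 16), (5, 2), (7, 3), (11, 1), (13, 1), (17, 1)]),
  (11339, [(2, 21), (3, 16), (5, 2), (7, 3), (11, 1), (13, 1)])]

theorem kFi24 : chkR 1255205709190661721292800 11 120 2 (comps [17, 23, 29]) tFi24 = true := by decide +kernel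

def tON : List (ℕ × List (ℕ × ℕ)) := [(209, [(2, 9), (3, 4), (5, 1), (7, 3), (31, 1)]),
  (341, [(2, 9), (3, 4), (5, 1), (7, 3), (19, 1)]),
  (589, [(2, 9), (3, 4), (5, 1), (7, 3), (11, 1)]),
  (6479, [(2, 9), (3, 4), (5, 1), (7, 3)])]

theorem kON : chkRB 460815505920 5 [(7, 0)] (comps [11, 19, 31]) tON = true := by decide +kernel

def tTh : List (ℕ × List (ℕ × ℕ)) := [(589, [(2, 15), (3, 10), (5, 3), (7, 2), (13, 1)])]

theorem kTh : chkRB 90745943887872000 13 [(5, 0), (7, 0)] (comps [19, 31]) tTh = true := by decide +kernel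

def lJ4 : List (ℕ × ℕ) := [(2, 21), (3, 3), (5, 1), (7, 1), (11, 3), (23, 1), (29, 1), (31, 1), (37, 1), (43, 1)]

theorem vJ4 : valid lJ4 86775571046077562880 = true := by decide +kernel

theorem kJ4 : ((cands lJ4 86775571046077562880).all fun g => !(Nat.beq (ordN g % (7 * 11 ^ 3)) 0) ||
    Nat.beq (ordN g) 86775571046077562880) = true := by decide +kernel

end Cfsg.Agent.H468.HCS
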