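import Cfsg.Agent.H468.HCS.Num
import Cfsg.Agent.H468.HCS.Base
import Cfsg.Agent.H547.SelfCent.Base

/-!
# Rows of the sporadic groups (helper468, for S4388): tools

* `norm_of` : `|N(⟨x⟩)| = p N0` for all `x` of order `p`, from bounds for one centralizer, by Sylow arithmetic;
* `exists_elt` : an element of order `p m` from `|N(⟨x⟩)| = p N0`;
* `row` : the test for all possible indices.
-/

set_option autoImplicit false

namespace Cfsg.Agent.H468.HCS

open Subgroup Cfsg.Agent.H581 Cfsg.Agent.OrdDiv Cfsg.Agent.H547.SelfCent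

universe u

/-! ### the normaliser -/

def chkN (N p c1 m N0 : ℕ) : Bool :=
  (List.range (c1 + 1)).all fun c => Nat.beq c 0 || !(Nat.beq (c1 % c) 0) || !(Nat.beq ((p * c) % m) 0) ||
    (List.range p).all fun e => Nat.beq e 0 || !(Nat.beq ((p - 1) % e) 0) || !(Nat.beq (N % (p * c * e)) 0) ||
      !(Nat.beq ((N / (p * c * e)) % p) (1 % p)) || Nat.beq (c * e) N0

/-- the order of the normaliser by Sylow arithmetic -/
theorem norm_of {S : Type u} [Group S] [Finite S] {N p c1 m N0 : ℕ} (hp : p.Prime) (hN : Nat.card S = N)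
    (hsq : ¬ p * p ∣ N) {x0 : S} (hx0 : orderOf x0 = p) (h1 : Nat.card (centralizer ({x0} : Set S)) ∣ p * c1)
    (hc1 : c1 ≠ 0) (h2 : m ∣ Nat.card (centralizer ({x0} : Set S))) (hchk : chkN N p c1 m N0 = true) :
    ∀ x : S, orderOf x = p → Nat.card (normalizer ((zpowers x : Subgroup S) : Set S)) = p * N0 := by
  intro x hx
  subst hN
  have hC := card_cent_eq hp hsq hx hx0
  rw [← hC] at h1 h2
  have hpC : p ∣ Nat.card (centralizer ({x} : Set S)) := by
    have h3 : zpowers x ≤ centralizer ({x} : Set S) := by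
      rw [zpowers_le, mem_centralizer_singleton_iff]
    have h4 := card_dvd_of_le h3
    rwa [Nat.card_zpowers, hx] at h4
  obtain ⟨c, hc⟩ := hpC
  obtain ⟨e, he1, he2, he3, he4, -⟩ := arith hp hx hsq
  rw [hc] at h1 h2 he2 he3 he4
  have hcc : c ∣ c1 := Nat.dvd_of_mul_dvd_mul_left hp.pos h1
  have hc0 : c ≠ 0 := by rintro rfl; rw [mul_zero] at hc; exact Nat.card_pos.ne' hc
  have he0 : e ≠ 0 := by rintro rfl; rw [mul_zero] at he4; exact Nat.card_pos.ne' he4
  have hple : 2 ≤ p := hp.two_le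
  unfold chkN at hchk
  rw [List.all_eq_true] at hchk
  have h3 := hchk c (List.mem_range.2 (by have := Nat.le_of_dvd (Nat.pos_of_ne_zero hc1) hcc; omega))
  simp only [Bool.or_eq_true, nbeq_iff, beq_iff] at h3
  rcases h3 with ((h3 | h3) | h3) | h3
  · exact absurd h3 hc0
  · exact absurd (Nat.mod_eq_zero_of_dvd hcc) h3
  · exact absurd (Nat.mod_eq_zero_of_dvd h2) h3
  · rw [List.all_eq_true] at h3
    have h4 := h3 e (List.mem_range.2 (by have := Nat.le_of_dvd (by omega) he1; omega))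
    simp only [Bool.or_eq_true, nbeq_iff, beq_iff] at h4
    rcases h4 with (((h4 | h4) | h4) | h4) | h4
    · exact absurd h4 he0
    · exact absurd (Nat.mod_eq_zero_of_dvd he1) h4
    · exact absurd (Nat.mod_eq_zero_of_dvd he2) h4
    · exact absurd he3 h4
    · rw [he4, ← h4, mul_assoc]

/-- the order of all normalisers from one -/
theorem norm_all {S : Type u} [Group S] [Finite S] {p a : ℕ} (hp : p.Prime)
    (hsq : ¬ p * p ∣ Nat.card S) {x0 : S} (hx0 : orderOf x0 = p)
    (h1 : Nat.card (normalizer ((zpowers x0 : Subgroup S) : Set S)) = a) :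
    ∀ x : S, orderOf x = p → Nat.card (normalizer ((zpowers x : Subgroup S) : Set S)) = a := by
  intro x hx
  have hpf : Fact p.Prime := ⟨hp⟩
  have hidx : ∀ y : S, orderOf y = p → ∃ P : Sylow p S, (P : Subgroup S) = zpowers y := by
    intro y hy
    have hcz : Nat.card (zpowers y) = p := by rw [Nat.card_zpowers, hy]
    have hP : IsPGroup p (zpowers y) := IsPGroup.of_card (n := 1) (by rw [hcz, pow_one])
    refine ⟨hP.toSylow fun h => hsq ?_, rfl⟩
    rw [← Subgroup.card_mul_index (zpowers y), hcz]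
    exact Nat.mul_dvd_mul_left p h
  obtain ⟨P, hP⟩ := hidx x hx
  obtain ⟨Q, hQ⟩ := hidx x0 hx0
  have h2 : Nat.card (Sylow p S) = (normalizer ((P : Subgroup S) : Set S)).index := Sylow.card_eq_index_normalizer P
  have h3 : Nat.card (Sylow p S) = (normalizer ((Q : Subgroup S) : Set S)).index := Sylow.card_eq_index_normalizer Q
  rw [hP] at h2
  rw [hQ] at h3
  have h4 := Subgroup.card_mul_index (normalizer ((zpowers x : Subgroup S) : Set S))
  have h5 := Subgroup.card_mul_index (normalizer ((zpowers x0 : Subgroup S) : Set S))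
  rw [← h2] at h4
  rw [← h3, ← h4, h1] at h5
  exact (Nat.eq_of_mul_eq_mul_right Nat.card_pos h5).symm

/-- an element of order `p q` -/
theorem exists_elt {S : Type u} [Group S] [Finite S] {p q N0 : ℕ} (hp : p.Prime) (hq : q.Prime) (hpq : p ≠ q)
    (hpS : p ∣ Nat.card S) (hsq : ¬ p * p ∣ Nat.card S)
    (hN : ∀ x : S, orderOf x = p → Nat.card (normalizer ((zpowers x : Subgroup S) : Set S)) = p * N0)
    (hN0 : N0 ≠ 0) (hchk : ((List.range p).all fun e => Nat.beq e 0 || !(Nat.beq ((p - 1) % e) 0) || !(Nat.beq (N0 % e) 0) ||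
      Nat.beq ((N0 / e) % q) 0) = true) :
    ∃ g : S, orderOf g = p * q := by
  have hpf : Fact p.Prime := ⟨hp⟩
  have hqf : Fact q.Prime := ⟨hq⟩
  obtain ⟨x, hx⟩ := exists_prime_orderOf_dvd_card' (G := S) p hpS
  obtain ⟨e, he1, -, -, he4, -⟩ := arith hp hx hsq
  rw [hN x hx] at he4
  have hpC : p ∣ Nat.card (centralizer ({x} : Set S)) := by
    have h3 : zpowers x ≤ centralizer ({x} : Set S) := by
      rw [zpowers_le, mem_centralizer_singleton_iff]
    have h4 := card_dvd_of_le h3
    rwa [Nat.card_zpowers, hx] at h4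
  obtain ⟨c, hc⟩ := hpC
  rw [hc, mul_assoc] at he4
  have h5 : N0 = c * e := Nat.eq_of_mul_eq_mul_left hp.pos he4
  have he0 : e ≠ 0 := by rintro rfl; rw [mul_zero] at h5; exact hN0 h5
  rw [List.all_eq_true] at hchk
  have h6 := hchk e (List.mem_range.2 (by
    have := Nat.le_of_dvd (by have := hp.two_le; omega) he1
    have := hp.two_le; omega))
  simp only [Bool.or_eq_true, nbeq_iff, beq_iff] at h6
  have h7 : q ∣ c := by
    rcases h6 with ((h6 | h6) | h6) | h6
    · exact absurd h6 he0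
    · exact absurd (Nat.mod_eq_zero_of_dvd he1) h6
    · exact absurd (Nat.mod_eq_zero_of_dvd ⟨c, by rw [h5, mul_comm]⟩) h6
    · rw [h5, Nat.mul_div_cancel _ (Nat.pos_of_ne_zero he0)] at h6
      exact Nat.dvd_of_mod_eq_zero h6
  obtain ⟨y, hy⟩ := exists_prime_orderOf_dvd_card' (G := centralizer ({x} : Set S)) q (by
    rw [hc]; exact h7.mul_left _)
  have hcm : Commute x (y : S) := (mem_centralizer_singleton_iff.1 y.2).symm
  refine ⟨x * y, ?_⟩
  rw [hcm.orderOf_mul_eq_mul_orderOf_of_coprime]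
  · rw [hx, orderOf_coe, hy]
  · rw [hx, orderOf_coe, hy]
    exact (Nat.coprime_primes hp hq).2 hpq

/-- the order of the centralizer divides `A` if `|S| = A B` and `z ^ k = 1` for all `z` in it, `k` prime to `B` -/
theorem cent_dvd_of_exp {S : Type u} [Group S] [Finite S] {A B k : ℕ} (hN : Nat.card S = A * B) (hk : k.Coprime B)
    {x : S} (h : ∀ z : S, Commute z x → z ^ k = 1) : Nat.card (centralizer ({x} : Set S)) ∣ A := by
  have h1 : Nat.card (centralizer ({x} : Set S)) ∣ A * B := by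
    rw [← hN]
    exact Subgroup.card_subgroup_dvd_card _
  refine Nat.Coprime.dvd_of_dvd_mul_right ?_ h1
  rw [Nat.coprime_iff_gcd_eq_one]
  by_contra hne
  obtain ⟨q, hq, hd⟩ := Nat.exists_prime_and_dvd hne
  have hqf : Fact q.Prime := ⟨hq⟩
  obtain ⟨z, hz⟩ := exists_prime_orderOf_dvd_card' (G := centralizer ({x} : Set S)) q (hd.trans (Nat.gcd_dvd_left _ _))
  have h2 := h z (mem_centralizer_singleton_iff.1 z.2)
  have h3 : q ∣ k := by
    have h4 := orderOf_dvd_of_pow_eq_one h2
    rwa [orderOf_coe, hz] at h4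
  have h5 := Nat.dvd_gcd h3 (hd.trans (Nat.gcd_dvd_right _ _))
  rw [Nat.coprime_iff_gcd_eq_one.1 hk] at h5
  exact hq.one_lt.ne' (Nat.dvd_one.1 h5)

/-- `m ∣ |C(x)|` for all `x` of order `p` if there is an element of order `m`, `p ∣ m` -/
theorem dvd_cent_of_orderOf {S : Type u} [Group S] [Finite S] {p m : ℕ} (hp : p.Prime)
    (hsq : ¬ p * p ∣ Nat.card S) {x : S} (hx : orderOf x = p) {g : S} (hg : orderOf g = p * m) :
    p * m ∣ Nat.card (centralizer ({x} : Set S)) := by
  have hm : m ≠ 0 := by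
    rintro rfl
    rw [mul_zero] at hg
    exact (orderOf_pos g).ne' hg
  have hy : orderOf (g ^ m) = p := by
    rw [orderOf_pow_of_dvd hm (by rw [hg]; exact dvd_mul_left _ _), hg, Nat.mul_div_cancel _ (Nat.pos_of_ne_zero hm)]
  rw [card_cent_eq hp hsq hx hy, ← hg, ← Nat.card_zpowers]
  apply card_dvd_of_le
  rw [zpowers_le, mem_centralizer_singleton_iff]
  exact (Commute.self_pow g m).eq

/-! ### transport -/

theorem card_cent_congr {S G : Type*} [Group S] [Group G] (e : S ≃* G) (x : S) :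
    Nat.card (centralizer ({x} : Set S)) = Nat.card (centralizer ({e x} : Set G)) := by
  refine Nat.card_congr
    { toFun := fun c => ⟨e c, ?_⟩
      invFun := fun c => ⟨e.symm c, ?_⟩
      left_inv := fun c => Subtype.ext (e.symm_apply_apply _)
      right_inv := fun c => Subtype.ext (e.apply_symm_apply _) }
  · have h := mem_centralizer_singleton_iff.1 c.2
    rw [mem_centralizer_singleton_iff, ← map_mul, h, map_mul]
  · have h := mem_centralizer_singleton_iff.1 c.2
    rw [mem_centralizer_singleton_iff]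
    apply e.injective
    rw [map_mul, map_mul, e.apply_symm_apply]
    exact h

theorem card_norm_congr {S G : Type*} [Group S] [Group G] (e : S ≃* G) (x : S) :
    Nat.card (normalizer ((zpowers x : Subgroup S) : Set S)) =
      Nat.card (normalizer ((zpowers (e x) : Subgroup G) : Set G)) := by
  have h1 : (normalizer ((zpowers x : Subgroup S) : Set S)).map e.toMonoidHom =
      normalizer ((zpowers (e x) : Subgroup G) : Set G) := by
    rw [Subgroup.map_equiv_normalizer_eq, MonoidHom.map_zpowers]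
    rfl
  rw [← h1]
  exact Nat.card_congr (Subgroup.equivMapOfInjective _ e.toMonoidHom e.injective).toEquiv

theorem norm_congr {S G : Type*} [Group S] [Group G] (e : S ≃* G) {p a : ℕ}
    (h : ∀ y : G, orderOf y = p → Nat.card (normalizer ((zpowers y : Subgroup G) : Set G)) = a) :
    ∀ x : S, orderOf x = p → Nat.card (normalizer ((zpowers x : Subgroup S) : Set S)) = a := by
  intro x hx
  rw [card_norm_congr e]
  exact h _ (by rw [MulEquiv.orderOf_eq, hx])

/-! ### the rows -/

/-- the table: every possible index is excluded -/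
def chkR (N p N0 m : ℕ) (I : List ℕ) (tab : List (ℕ × List (ℕ × ℕ))) : Bool :=
  I.all fun n => tab.any fun t => Nat.beq t.1 n && Nat.beq (N % n) 0 && valid t.2 (N / n) &&
    chkA (N / n) p N0 m n t.2

theorem row (T : OrderTable.{u}) (hS : ∀ (X : Type u) [Group X] [Finite X] [IsSimpleGroup X], IsKnownSimple' X)
    {S : Type u} [Group S] [Finite S] {σ : Set ℕ} (hc : HC S σ) {H : Subgroup S} (hH : IsHallFor σ H)
    {N p N0 m : ℕ} {I : List ℕ} {tab : List (ℕ × List (ℕ × ℕ))} (hN : Nat.card S = N) (hp : p.Prime)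
    (hp2 : ¬ p ^ 2 ∣ N) (hpσ : p ∈ σ) (hN0 : N0 ≠ 0)
    (hnorm : ∀ x : S, orderOf x = p → Nat.card (normalizer ((zpowers x : Subgroup S) : Set S)) = p * N0)
    {g : S} (hg : orderOf g = p * m) (hI : H.index ∈ I) (hchk : chkR N p N0 m I tab = true) : False := by
  obtain ⟨K, hgK, -, hKi⟩ := exists_hall_mem hc hH hp (by rw [hg]; exact dvd_mul_right _ _) hpσ
  unfold chkR at hchk
  rw [List.all_eq_true] at hchk
  have h1 := hchk _ hI
  rw [List.any_eq_true] at h1
  obtain ⟨t, -, h2⟩ := h1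
  simp only [Bool.and_eq_true, beq_iff] at h2
  obtain ⟨⟨⟨h3, h4⟩, h5⟩, h6⟩ := h2
  have hNn : N = H.index * (N / H.index) := (Nat.mul_div_cancel' (Nat.dvd_of_mod_eq_zero h4)).symm
  refine false_of_chkA T hS hp (n := H.index) (h := N / H.index) (by rw [hN, ← hNn]) (by rwa [← hNn]) hN0 hKi hgK hg hnorm h5 h6

/-- the table with partial information on the normaliser -/
def chkRB (N p : ℕ) (E : List (ℕ × ℕ)) (I : List ℕ) (tab : List (ℕ × List (ℕ × ℕ))) : Bool :=
  I.all fun n => tab.any fun t => Nat.beq t.1 n && Nat.beq (N % n) 0 && valid t.2 (N / n) &&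
    !(Nat.beq (n % p) 0) && Nat.beq ((N / n) % p) 0 && !(Nat.beq ((N / n) % p ^ 2) 0) && chkB (N / n) p E t.2

theorem rowB (T : OrderTable.{u}) (hS : ∀ (X : Type u) [Group X] [Finite X] [IsSimpleGroup X], IsKnownSimple' X)
    {S : Type u} [Group S] [Finite S] {H : Subgroup S} {N p : ℕ} {E : List (ℕ × ℕ)} {I : List ℕ}
    {tab : List (ℕ × List (ℕ × ℕ))} (hN : Nat.card S = N) (hp : p.Prime)
    (hE : ∀ x : S, orderOf x = p → ∀ y ∈ E, ¬ y.1 ^ (y.2 + 1) ∣ Nat.card (normalizer ((zpowers x : Subgroup S) : Set S)))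
    (hI : H.index ∈ I) (hchk : chkRB N p E I tab = true) : False := by
  unfold chkRB at hchk
  rw [List.all_eq_true] at hchk
  have h1 := hchk _ hI
  rw [List.any_eq_true] at h1
  obtain ⟨t, -, h2⟩ := h1
  simp only [Bool.and_eq_true, beq_iff, nbeq_iff] at h2
  obtain ⟨⟨⟨⟨⟨⟨h3, h4⟩, h5⟩, h6⟩, h7⟩, h8⟩, h9⟩ := h2
  have hNn : N = H.index * (N / H.index) := (Nat.mul_div_cancel' (Nat.dvd_of_mod_eq_zero h4)).symm
  exact false_of_chkB' T hS hp (n := H.index) (h := N / H.index) (by rw [hN, ← hNn]) rfl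
    (fun h => h6 (Nat.mod_eq_zero_of_dvd h)) (Nat.dvd_of_mod_eq_zero h7) (fun h => h8 (Nat.mod_eq_zero_of_dvd h)) h5 hE h9

end Cfsg.Agent.H468.HCS
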